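import Mathlib

/-! An equivariant form of the transfer (helper51). -/

set_option autoImplicit false

namespace Cfsg.Agent.NFC

variable {M : Type*} [Group M] {P : Subgroup M} {A : Type*} [CommGroup A]

open scoped Classical in
/-- Extension of a homomorphism on `P` by `1`. -/
noncomputable def ext1 (φ : P →* A) (x : M) : A := if h : x ∈ P then φ ⟨x, h⟩ else 1

theorem ext1_of_mem (φ : P →* A) {x : M} (h : x ∈ P) : ext1 φ x = φ ⟨x, h⟩ := dif_pos h

theorem ext1_mul (φ : P →* A) {x y : M} (hx : x ∈ P) (hy : y ∈ P) :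
    ext1 φ (x * y) = ext1 φ x * ext1 φ y := by
  rw [ext1_of_mem φ hx, ext1_of_mem φ hy, ext1_of_mem φ (P.mul_mem hx hy), ← map_mul]; rfl

theorem sec_mem {s t : M ⧸ P → M} (hs : ∀ q, (s q : M ⧸ P) = q) (ht : ∀ q, (t q : M ⧸ P) = q)
    (g : M) (q : M ⧸ P) : (s (g • q))⁻¹ * (g * t q) ∈ P := by
  rw [← QuotientGroup.eq, hs]
  conv_lhs => rw [← ht q]
  rfl

variable [Fintype (M ⧸ P)]

/-- The transfer with respect to a section. -/
noncomputable def trs (φ : P →* A) (s : M ⧸ P → M) (g : M) : A :=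
  ∏ q, ext1 φ ((s (g • q))⁻¹ * (g * s q))

theorem trs_indep (φ : P →* A) {s t : M ⧸ P → M} (hs : ∀ q, (s q : M ⧸ P) = q)
    (ht : ∀ q, (t q : M ⧸ P) = q) (g : M) : trs φ s g = trs φ t g := by
  have h1 : ∀ q, (s q)⁻¹ * t q ∈ P := fun q => by simpa using sec_mem hs ht 1 q
  apply mul_right_cancel (b := ∏ q, ext1 φ ((s q)⁻¹ * t q))
  rw [mul_comm (trs φ t g)]
  conv_rhs => rw [← Equiv.prod_comp (MulAction.toPerm g)]
  simp only [trs, ← Finset.prod_mul_distrib, MulAction.toPerm_apply]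
  refine Finset.prod_congr rfl fun q _ => ?_
  rw [← ext1_mul φ (sec_mem hs hs g q) (h1 q), ← ext1_mul φ (h1 _) (sec_mem ht ht g q)]
  congr 1
  group

/-- The transfer homomorphism. -/
noncomputable def trh (φ : P →* A) : M →* A :=
  MonoidHom.mk' (trs φ Quotient.out) fun g h => by
    have hs : ∀ q : M ⧸ P, ((Quotient.out q : M) : M ⧸ P) = q := QuotientGroup.out_eq'
    conv_rhs => rw [trs, ← Equiv.prod_comp (MulAction.toPerm h)]
    simp only [trs, ← Finset.prod_mul_distrib, MulAction.toPerm_apply]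
    refine Finset.prod_congr rfl fun q _ => ?_
    rw [← ext1_mul φ (sec_mem hs hs g _) (sec_mem hs hs h q), mul_smul]
    congr 1
    group

theorem map_trh {B : Type*} [CommGroup B] (φ : P →* A) (lam : A →* B) (π : M →* B)
    (h : ∀ x : P, lam (φ x) = π x) (g : M) : lam (trh φ g) = π g ^ P.index := by
  have hs : ∀ q : M ⧸ P, ((Quotient.out q : M) : M ⧸ P) = q := QuotientGroup.out_eq'
  change lam (trs φ _ g) = _
  rw [trs, map_prod, Finset.prod_congr rfl (g := fun q : M ⧸ P => (π (Quotient.out (g • q)))⁻¹ *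
    (π g * π (Quotient.out q))) fun q _ => by
      rw [ext1_of_mem φ (sec_mem hs hs g q), h, map_mul, map_mul, map_inv],
    Finset.prod_mul_distrib, Finset.prod_mul_distrib, Finset.prod_inv_distrib,
    show ∏ q : M ⧸ P, π (Quotient.out (g • q)) = ∏ q : M ⧸ P, π (Quotient.out q) from
      Equiv.prod_comp (MulAction.toPerm g) fun q : M ⧸ P => π (Quotient.out q),
    Finset.prod_const, Finset.card_univ, Subgroup.index, Nat.card_eq_fintype_card, mul_comm,
    mul_inv_cancel_right]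

theorem trh_aut (φ : P →* A) (θ : M ≃* M) (hθ : ∀ x, θ x ∈ P ↔ x ∈ P) (lam : A →* A)
    (h : ∀ x : P, lam (φ x) = φ ⟨θ x, (hθ x).mpr x.2⟩) (g : M) : trh φ (θ g) = lam (trh φ g) := by
  have hs : ∀ q : M ⧸ P, ((Quotient.out q : M) : M ⧸ P) = q := QuotientGroup.out_eq'
  let e : M ⧸ P ≃ M ⧸ P := Quotient.congr θ.toEquiv fun a b => by
    rw [QuotientGroup.leftRel_apply, QuotientGroup.leftRel_apply, ← hθ, map_mul, map_inv]; rfl
  have he : ∀ x : M, e (x : M ⧸ P) = (θ x : M ⧸ P) := fun x => rfl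
  have h1 : ∀ q, e (g • q) = θ g • e q := fun q => by
    induction q using QuotientGroup.induction_on with | H x => ?_
    exact (he (g * x)).trans (by rw [map_mul]; rfl)
  have ht : ∀ q, ((θ.symm (Quotient.out (e q)) : M) : M ⧸ P) = q := fun q =>
    e.injective (by rw [he, MulEquiv.apply_symm_apply, hs])
  change trs φ _ (θ g) = lam (trs φ _ g)
  rw [trs_indep φ hs ht g, trs, trs, map_prod, ← Equiv.prod_comp e]
  refine Finset.prod_congr rfl fun q _ => ?_
  rw [ext1_of_mem φ (sec_mem ht ht g q), h, ext1_of_mem φ (sec_mem hs hs _ _)]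
  congr 2
  simp [h1]

end Cfsg.Agent.NFC
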